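import Cfsg.Agent.Lib.JankoOne.Facts
import Cfsg.Agent.Lib.SchurMult.SmallSylow

/-!
The Schur multiplier of the first Janko group is trivial.
-/

set_option autoImplicit false
set_option maxRecDepth 100000

namespace CfsgLib.JankoOne

open CfsgLib.SporadicB.J1Cert CfsgLib.SchurMult
open scoped commutatorElement

attribute [local irreducible] mm meq hEl tEl el elM

theorem checkEight : (meq (powM (elM pU) 2) one && meq (powM (elM pV) 2) one &&
    meq (mm (elM pU) (elM pV)) (mm (elM pV) (elM pU)) &&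
    meq (mm (elM pU) (elM pW)) (mm (elM pW) (elM pU)) &&
    meq (mm (elM pV) (elM pW)) (mm (elM pW) (elM pV)) &&
    meq (mm (elM pG) (elM pU)) (mm (elM pV) (elM pG)) &&
    meq (mm (elM pG) (elM pV)) (mm (elM pW) (elM pG)) &&
    meq (mm (elM pG) (elM pW)) (mm (mm (elM pU) (elM pV)) (elM pG)) &&
    meq (powM (elM pW) 2) one) = true := by
  decide +kernel

theorem eight_nodup : (([one, elM pU, elM pV, elM pW, mm (elM pU) (elM pV), mm (elM pU) (elM pW),
    mm (elM pV) (elM pW), mm (mm (elM pU) (elM pV)) (elM pW)] : List M7).map entries).Nodup := by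
  decide +kernel

theorem not_two_dvd_index {G : Type*} [Group G] [Finite G] {u v w : G} (hu : u ^ 2 = 1)
    (hv : v ^ 2 = 1) (hw : w ^ 2 = 1) (huv : Commute u v) (huw : Commute u w) (hvw : Commute v w)
    (h8 : 8 ≤ Nat.card (Subgroup.closure ({u, v, w} : Set G))) (h16 : ¬ 2 ^ 4 ∣ Nat.card G) :
    ¬ 2 ∣ (Subgroup.closure ({u, v, w} : Set G)).index := by
  set H := Subgroup.closure ({u, v, w} : Set G)
  intro hd
  have hab : ∀ x ∈ H, ∀ y ∈ H, Commute x y := fun x hx y hy =>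
    Subgroup.closure_induction₂ (p := fun p q _ _ => Commute p q)
      (fun p q hp hq => by
        rcases hp with rfl | rfl | rfl <;> rcases hq with rfl | rfl | rfl <;>
          first | exact Commute.refl _ | assumption | exact Commute.symm (by assumption))
      (fun p _ => Commute.one_left p) (fun p _ => Commute.one_right p)
      (fun p q r _ _ _ h1 h2 => h1.mul_left h2) (fun p q r _ _ _ h1 h2 => h1.mul_right h2)
      (fun p q _ _ h1 => h1.inv_left) (fun p q _ _ h1 => h1.inv_right) hx hy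
  have hexp : ∀ x ∈ H, x ^ 2 = 1 := by
    intro x hx
    induction hx using Subgroup.closure_induction with
    | mem p hp => rcases hp with rfl | rfl | rfl <;> assumption
    | one => exact one_pow _
    | mul p q hp hq ihp ihq => rw [(hab p hp q hq).mul_pow, ihp, ihq, one_mul]
    | inv p _ ihp => rw [inv_pow, ihp, inv_one]
  haveI : Fact (Nat.Prime 2) := ⟨Nat.prime_two⟩
  obtain ⟨k, hk⟩ := IsPGroup.iff_card.mp
    (show IsPGroup 2 H from fun x => ⟨1, Subtype.ext (by simpa using hexp x x.2)⟩)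
  have hmul := H.card_mul_index
  rw [hk] at hmul
  have h3 : 3 ≤ k := by
    by_contra hc
    rw [hk] at h8
    interval_cases k <;> omega
  obtain ⟨m, hm⟩ := hd
  obtain ⟨d, rfl⟩ := Nat.exists_eq_add_of_le h3
  rw [hm, pow_add] at hmul
  exact h16 ⟨2 ^ d * m, by rw [← hmul]; ring⟩

theorem not_two_dvd {Γ : Type} [Group Γ] [Finite Γ] {σ : Γ →* J} (hσ : Cfsg.IsStemExtension σ) :
    ¬ 2 ∣ Nat.card σ.ker := by
  have h := checkEight
  simp only [Bool.and_eq_true] at h
  obtain ⟨⟨⟨⟨⟨⟨⟨⟨su, sv⟩, cuv⟩, cuw⟩, cvw⟩, gu⟩, gv⟩, gw⟩, sw⟩ := h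
  have ru := reps_el pU
  have rv := reps_el pV
  have rw' := reps_el pW
  have rg := reps_el pG
  set H := Subgroup.closure ({el pU, el pV, el pW} : Set J) with hH
  have hu : el pU ^ 2 = 1 := (pow_reps ru 2).eq reps_one su
  have hv : el pV ^ 2 = 1 := (pow_reps rv 2).eq reps_one sv
  have hw : el pW ^ 2 = 1 := (pow_reps rw' 2).eq reps_one sw
  have huv : Commute (el pU) (el pV) := (ru.mul rv).eq (rv.mul ru) cuv
  have huw : Commute (el pU) (el pW) := (ru.mul rw').eq (rw'.mul ru) cuw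
  have hvw : Commute (el pV) (el pW) := (rv.mul rw').eq (rw'.mul rv) cvw
  have hgu : el pG * el pU * (el pG)⁻¹ = el pV := by
    rw [mul_inv_eq_iff_eq_mul]; exact (rg.mul ru).eq (rv.mul rg) gu
  have hgv : el pG * el pV * (el pG)⁻¹ = el pW := by
    rw [mul_inv_eq_iff_eq_mul]; exact (rg.mul rv).eq (rw'.mul rg) gv
  have hgw : el pG * el pW * (el pG)⁻¹ = el pU * el pV := by
    rw [mul_inv_eq_iff_eq_mul]; exact (rg.mul rw').eq ((ru.mul rv).mul rg) gw
  -- the index is odd
  have h8 : 8 ≤ Nat.card H := by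
    have m1 : el pU ∈ H := Subgroup.subset_closure (by simp)
    have m2 : el pV ∈ H := Subgroup.subset_closure (by simp)
    have m3 : el pW ∈ H := Subgroup.subset_closure (by simp)
    have hmem : ∀ m ∈ ([one, elM pU, elM pV, elM pW, mm (elM pU) (elM pV), mm (elM pU) (elM pW),
        mm (elM pV) (elM pW), mm (mm (elM pU) (elM pV)) (elM pW)] : List M7),
        ∃ g ∈ H, Reps m g := by
      intro m hm
      simp only [List.mem_cons, List.not_mem_nil, or_false] at hm
      rcases hm with rfl | rfl | rfl | rfl | rfl | rfl | rfl | rfl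
      exacts [⟨1, one_mem H, reps_one⟩, ⟨_, m1, ru⟩, ⟨_, m2, rv⟩, ⟨_, m3, rw'⟩,
        ⟨_, mul_mem m1 m2, ru.mul rv⟩, ⟨_, mul_mem m1 m3, ru.mul rw'⟩, ⟨_, mul_mem m2 m3, rv.mul rw'⟩,
        ⟨_, mul_mem (mul_mem m1 m2) m3, (ru.mul rv).mul rw'⟩]
    choose F hFH hF using fun i : Fin 8 =>
      hmem (([one, elM pU, elM pV, elM pW, mm (elM pU) (elM pV), mm (elM pU) (elM pW),
        mm (elM pV) (elM pW), mm (mm (elM pU) (elM pV)) (elM pW)] : List M7).get i) (List.get_mem _ _)
    have hinj : Function.Injective fun i => (⟨F i, hFH i⟩ : H) := by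
      intro i j hij
      have e : F i = F j := congrArg Subtype.val hij
      by_contra hne
      refine toMat_ne (fun he => hne ?_) ((hF i).symm.trans ((congrArg mat e).trans (hF j)))
      have := List.nodup_iff_injective_get.1 eight_nodup
        (a₁ := ⟨i, by simp⟩) (a₂ := ⟨j, by simp⟩) (by simpa only [List.get_eq_getElem, List.getElem_map] using he)
      exact Fin.ext (congrArg Fin.val this)
    simpa using Nat.card_le_card_of_injective _ hinj
  have hindex : ¬ 2 ∣ H.index :=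
    not_two_dvd_index hu hv hw huv huw hvw h8 (by rw [card_J]; norm_num)
  refine not_dvd_card_ker_of_local hσ Nat.prime_two H hindex fun z hz _ => ?_
  obtain ⟨U, hU⟩ := hσ.1 (el pU)
  obtain ⟨V, hV⟩ := hσ.1 (el pV)
  obtain ⟨W, hW⟩ := hσ.1 (el pW)
  obtain ⟨g, hg⟩ := hσ.1 (el pG)
  have hc := hσ.2.1
  have cUV : Commute (σ U) (σ V) := by rw [hU, hV]; exact huv
  have cUW : Commute (σ U) (σ W) := by rw [hU, hW]; exact huw
  have cVW : Commute (σ V) (σ W) := by rw [hV, hW]; exact hvw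
  have sq : ∀ X Y : Γ, Commute (σ X) (σ Y) → σ X ^ 2 = 1 → ⁅X, Y⁆⁻¹ = ⁅X, Y⁆ := fun X Y hXY hX => by
    refine inv_eq_of_mul_eq_one_left ?_
    rw [← pow_two, ← comm_pow_left hc hXY, commutatorElement_eq_one_iff_mul_comm]
    exact (ker_comm hc (show X ^ 2 ∈ σ.ker by rw [MonoidHom.mem_ker, map_pow, hX]) Y).symm
  have e1 : ⁅V, W⁆ = ⁅U, V⁆ := by
    rw [← comm_conj hc cUV g]
    exact comm_eq_of_map_eq hc (by simp [hg, hU, hV, hgu]) (by simp [hg, hV, hW, hgv])
  have e2 : ⁅U, W⁆ = ⁅V, U * V⁆ := by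
    rw [← comm_conj hc cUW g]
    exact comm_eq_of_map_eq hc (by simp [hg, hU, hV, hgu]) (by simp [hg, hU, hV, hW, hgw])
  have e3 : ⁅V, W⁆ = ⁅W, U * V⁆ := by
    rw [← comm_conj hc cVW g]
    exact comm_eq_of_map_eq hc (by simp [hg, hV, hW, hgv]) (by simp [hg, hU, hV, hW, hgw])
  have hi1 : ⁅V, U⁆ = ⁅U, V⁆ := by rw [← commutatorElement_inv]; exact sq _ _ cUV (by rw [hU, hu])
  have hi2 : ⁅W, U⁆ = ⁅U, W⁆ := by rw [← commutatorElement_inv]; exact sq _ _ cUW (by rw [hU, hu])
  have hi3 : ⁅W, V⁆ = ⁅V, W⁆ := by rw [← commutatorElement_inv]; exact sq _ _ cVW (by rw [hV, hv])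
  have hsq1 : ⁅U, V⁆ * ⁅U, V⁆ = 1 := by
    conv_lhs => arg 1; rw [← sq _ _ cUV (by rw [hU, hu])]
    exact inv_mul_cancel _
  rw [comm_mul_right hc (Commute.refl (σ V)), hi1, commutatorElement_self, mul_one] at e2
  rw [comm_mul_right hc cVW.symm, hi2, hi3, e1, e2, hsq1] at e3
  have hVW : ⁅V, W⁆ = 1 := e1.trans e3
  have hUW : ⁅U, W⁆ = 1 := e2.trans e3
  have hb := commutator_comap_closure_eq_bot hc {U, V, W} (σ := σ) (by
    rintro s (rfl | rfl | rfl) t (rfl | rfl | rfl) <;>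
      simp [e3, hUW, hVW, hi1, hi2, hi3])
  rw [show σ '' {U, V, W} = ({el pU, el pV, el pW} : Set J) by
    simp [Set.image_insert_eq, hU, hV, hW], ← hH] at hb
  rwa [hb, Subgroup.mem_bot] at hz

theorem hasCyclicSchurMultiplier_J1 : Cfsg.HasCyclicSchurMultiplier J 1 := by
  refine hasCyclicSchurMultiplier_one_of_primes fun p hp hpd Γ _ _ σ hσ => ?_
  by_cases h2 : p = 2
  · subst h2; exact not_two_dvd hσ
  refine not_dvd_card_ker_of_sq_not_dvd hσ hp ?_
  rw [card_J] at hpd ⊢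
  rw [show 175560 = 2 ^ 3 * 3 * 5 * 7 * 11 * 19 by norm_num] at hpd
  simp only [hp.dvd_mul] at hpd
  have hp' : p = 3 ∨ p = 5 ∨ p = 7 ∨ p = 11 ∨ p = 19 := by
    rcases hpd with ((((h | h) | h) | h) | h) | h
    · exact absurd ((Nat.prime_dvd_prime_iff_eq hp Nat.prime_two).1 (hp.dvd_of_dvd_pow h)) h2
    all_goals have := (Nat.prime_dvd_prime_iff_eq hp (by norm_num)).1 h; omega
  rcases hp' with rfl | rfl | rfl | rfl | rfl <;> decide +kernel

end CfsgLib.JankoOne
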